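import Groth.Agent.VarietyB.ProjGlue
import Groth.Agent.Ega2.IsoCocycle
import Groth.Agent.Fdesc.LocGenPullback
import Groth.Agent.CurvesC.TwistGen

/-!
# Morphisms to `Proj` of a graded ring from compatible local ring homomorphisms

`ProjData 𝒜 X J`: opens `U j` covering `X`, elements `t j` of degree one and ring homomorphisms
`φ j : A →+* Γ(X, U j)` with `φ j (t j) = 1` which on degree `n` differ on overlaps by the `n`-th power of
`φ i (t j)`.

* `ProjData.toProj : X ⟶ Proj 𝒜`, `le_preimage`, `appLE_awayToSection`;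
* `toProj_toSpec`: compatibility with the structure morphisms to `Spec R`;
* `res_pullTop`: the pull back of the global section `a` of `O(1)` is `φ j a` times that of `t j` over `U j`;
* `exists_iso`: the isomorphism `r^* O(1) ≅ L` for `L` with generators `e j` over `U j`.
-/

set_option autoImplicit false
universe u
open CategoryTheory CategoryTheory.Limits AlgebraicGeometry TopologicalSpace Opposite
open HomogeneousLocalization
open Groth.Agent.Fdesc.LocGen
open Groth.Agent.VarietyB Groth.Agent.VarietyB.ProjHom Groth.Agent.VarietyB.ProjGlue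

namespace Groth.Agent.Ega2.H297.ProjMap

set_option linter.unusedSectionVars false

section

variable {σ : Type*} {A : Type u} [CommRing A] [SetLike σ A] [AddSubgroupClass σ A]
  (𝒜 : ℕ → σ) [GradedRing 𝒜]

/-- Compatible local ring homomorphisms defining a morphism to `Proj 𝒜`. -/
structure ProjData (X : Scheme.{u}) (J : Type*) where
  /-- the opens -/
  U : J → X.Opens
  iSup_U : ⨆ j, U j = ⊤
  /-- elements of degree one -/
  t : J → A
  t_mem : ∀ j, t j ∈ 𝒜 1
  /-- the local ring homomorphisms -/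
  φ : ∀ j, A →+* Γ(X, U j)
  φ_t : ∀ j, φ j (t j) = 1
  compat : ∀ (i j : J) (n : ℕ) (a : A), a ∈ 𝒜 n →
    ores (inf_le_left : U i ⊓ U j ≤ U i) (φ i a) =
      ores (inf_le_left : U i ⊓ U j ≤ U i) (φ i (t j)) ^ n *
        ores (inf_le_right : U i ⊓ U j ≤ U j) (φ j a)

namespace ProjData

variable {𝒜} {X : Scheme.{u}} {J : Type*} (D : ProjData 𝒜 X J)

/-- The ring homomorphism to the global functions on the open subscheme `U j`. -/
noncomputable def homTop (j : J) : A →+* Γ((D.U j).toScheme, ⊤) :=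
  (D.U j).topIso.inv.hom.comp (D.φ j)

lemma homTop_t (j : J) : D.homTop j (D.t j) = 1 := by
  rw [homTop, RingHom.comp_apply, D.φ_t, map_one]

lemma isUnit_homTop (j : J) : IsUnit (D.homTop j (D.t j)) := by
  rw [homTop_t]
  exact isUnit_one

/-- The local morphisms. -/
noncomputable def localHom (j : J) : (D.U j).toScheme ⟶ Proj 𝒜 :=
  ProjHom.toProj 𝒜 (D.homTop j) (D.t_mem j) Nat.one_pos (D.isUnit_homTop j)

lemma comp_homTop (i : J) {V : X.Opens} (h : V ≤ D.U i) (a : A) :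
    (X.homOfLE h).appTop.hom (D.homTop i a) = V.topIso.inv.hom (ores h (D.φ i a)) := by
  have := CoordData.homOfLE_appTop_topIso_inv h
  exact congr(($this).hom (D.φ i a))

lemma isUnit_trans (i j : J) :
    IsUnit (ores (inf_le_left : D.U i ⊓ D.U j ≤ D.U i) (D.φ i (D.t j))) := by
  have h := D.compat i j 1 (D.t i) (D.t_mem i)
  rw [D.φ_t, map_one, pow_one] at h
  exact IsUnit.of_mul_eq_one _ h.symm

lemma localHom_compat (i j : J) :
    X.homOfLE (inf_le_left : D.U i ⊓ D.U j ≤ D.U i) ≫ D.localHom i =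
      X.homOfLE (inf_le_right : D.U i ⊓ D.U j ≤ D.U j) ≫ D.localHom j := by
  set V := D.U i ⊓ D.U j with hV
  obtain ⟨u, hu⟩ := D.isUnit_trans i j
  have h1 : ((X.homOfLE (inf_le_left : V ≤ D.U i)).appTop.hom.comp (D.homTop i)) (D.t j) =
      V.topIso.inv.hom u := by
    rw [hu]
    exact D.comp_homTop i _ _
  have hu1 : IsUnit ((X.homOfLE (inf_le_left : V ≤ D.U i)).appTop.hom.comp (D.homTop i) (D.t j)) := by
    rw [h1]; exact u.isUnit.map _
  rw [localHom, localHom, comp_toProj, comp_toProj]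
  rw [toProj_indep _ _ _ _ (D.t_mem j) Nat.one_pos _ hu1]
  refine toProj_twist _ _ _ _ _ _ _ (Units.map V.topIso.inv.hom.toMonoidHom u) ?_
  intro n a ha
  have h2 := D.compat i j n a ha
  rw [← hu] at h2
  have h3 := congrArg V.topIso.inv.hom h2
  rw [map_mul, map_pow] at h3
  refine (D.comp_homTop i inf_le_left a).trans (h3.trans ?_)
  congr 1
  exact (D.comp_homTop j inf_le_right a).symm

/-- The morphism to `Proj` defined by the local data. -/
noncomputable def toProj : X ⟶ Proj 𝒜 :=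
  (exists_glue_opens D.U D.iSup_U D.localHom D.localHom_compat).choose

lemma ι_toProj (j : J) : (D.U j).ι ≫ D.toProj = D.localHom j :=
  (exists_glue_opens D.U D.iSup_U D.localHom D.localHom_compat).choose_spec j

lemma le_preimage (j : J) : D.U j ≤ D.toProj ⁻¹ᵁ Proj.basicOpen 𝒜 (D.t j) := by
  have h1 : D.localHom j ⁻¹ᵁ Proj.basicOpen 𝒜 (D.t j) = ⊤ := by
    rw [localHom, toProj_preimage_basicOpen _ _ _ _ _ (D.t_mem j) Nat.one_pos, homTop_t]
    exact Scheme.basicOpen_of_isUnit _ isUnit_one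
  rw [← D.ι_toProj, Scheme.Hom.comp_preimage] at h1
  have h2 := congrArg (fun V => (D.U j).ι ''ᵁ V) h1
  simp only [Scheme.Hom.image_preimage_eq_opensRange_inf, Scheme.Opens.opensRange_ι,
    Scheme.Hom.image_top_eq_opensRange] at h2
  rw [inf_eq_left] at h2
  exact h2

lemma toSpecΓ_injective {V : X.Opens} {B : Type u} [CommRing B] {f g : B →+* Γ(X, V)}
    (h : V.toSpecΓ ≫ Spec.map (CommRingCat.ofHom f) = V.toSpecΓ ≫ Spec.map (CommRingCat.ofHom g)) : f = g := by
  have key : ∀ φ : B →+* Γ(X, V), (V.toSpecΓ ≫ Spec.map (CommRingCat.ofHom φ)).appTop =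
    (Scheme.ΓSpecIso (CommRingCat.of B)).hom ≫ CommRingCat.ofHom φ ≫ V.topIso.inv := by
    intro φ
    rw [Scheme.Hom.comp_appTop, Scheme.Opens.toSpecΓ_appTop, ← Scheme.ΓSpecIso_naturality_assoc]
    rfl
  have h2 := congrArg Scheme.Hom.appTop h
  rw [key, key, Iso.cancel_iso_hom_left, Iso.cancel_iso_inv_right] at h2
  exact congrArg CommRingCat.Hom.hom h2

/-- The morphism pulls back the fraction `x` over `D_+(t j)` to its image under the lift of `φ j`. -/
theorem appLE_awayToSection (j : J) (x : Away 𝒜 (D.t j)) :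
    (D.toProj).appLE _ (D.U j) (D.le_preimage j) (Proj.awayToSection 𝒜 (D.t j) x) =
      awayLift 𝒜 (D.φ j) (D.t j) (by rw [D.φ_t]; exact isUnit_one) x := by
  have hU : IsUnit (D.φ j (D.t j)) := by rw [D.φ_t]; exact isUnit_one
  have h1 : (D.toProj).resLE _ (D.U j) (D.le_preimage j) = (D.U j).toScheme.toSpecΓ ≫
      Spec.map (CommRingCat.ofHom (awayLift 𝒜 (D.homTop j) (D.t j) (D.isUnit_homTop j))) ≫
      (Proj.basicOpenIsoSpec 𝒜 _ (D.t_mem j) Nat.one_pos).inv := by
    rw [← cancel_mono (Proj.basicOpen 𝒜 (D.t j)).ι,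
      Scheme.Hom.resLE_comp_ι, D.ι_toProj j]
    simp only [Category.assoc]
    rfl
  have h2 : (D.U j).toSpecΓ ≫ Spec.map (CommRingCat.ofHom
      (((D.toProj).appLE _ (D.U j) (D.le_preimage j)).hom.comp
        (Proj.awayToSection 𝒜 (D.t j)).hom)) =
      (D.U j).toSpecΓ ≫ Spec.map (CommRingCat.ofHom (awayLift 𝒜 (D.φ j) (D.t j) hU)) := by
    have e1 : (D.U j).toSpecΓ ≫ Spec.map (CommRingCat.ofHom
      (((D.toProj).appLE _ (D.U j) (D.le_preimage j)).hom.comp
        (Proj.awayToSection 𝒜 (D.t j)).hom)) =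
      ((D.U j).toSpecΓ ≫ Spec.map ((D.toProj).appLE _ (D.U j) (D.le_preimage j))) ≫
        Spec.map (Proj.awayToSection 𝒜 (D.t j)) := by
      rw [Category.assoc, ← Spec.map_comp]
      rfl
    rw [e1, Scheme.Opens.toSpecΓ_SpecMap_appLE, h1]
    simp only [Category.assoc]
    have e2 : (Proj.basicOpenIsoSpec 𝒜 _ (D.t_mem j) Nat.one_pos).inv ≫
        (Proj.basicOpen 𝒜 (D.t j)).toSpecΓ ≫
        Spec.map (Proj.awayToSection 𝒜 (D.t j)) = 𝟙 _ := by
      rw [Iso.inv_comp_eq, Category.comp_id, Proj.basicOpenIsoSpec_hom]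
      rfl
    rw [e2, Category.comp_id, Scheme.Opens.toSpecΓ, Category.assoc, ← Spec.map_comp]
    have e3 : CommRingCat.ofHom (awayLift 𝒜 (D.homTop j) (D.t j) (D.isUnit_homTop j)) =
        CommRingCat.ofHom (awayLift 𝒜 (D.φ j) (D.t j) hU) ≫ (D.U j).topIso.inv := by
      have := awayLift_comp 𝒜 (D.φ j) hU (D.t_mem j) (D.U j).topIso.inv.hom
      exact (congrArg CommRingCat.ofHom this).symm
    exact congrArg (fun z => (D.U j).toScheme.toSpecΓ ≫ Spec.map z) e3
  have h3 := toSpecΓ_injective h2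
  exact congrArg (fun φ => φ x) h3

theorem appLE_awayToSection_mk (j : J) (n : ℕ) (a : A) (ha : a ∈ 𝒜 (n • 1)) :
    (D.toProj).appLE _ (D.U j) (D.le_preimage j)
      (Proj.awayToSection 𝒜 (D.t j) (Away.mk 𝒜 (D.t_mem j) n a ha)) = D.φ j a := by
  have hU : IsUnit (D.φ j (D.t j)) := by rw [D.φ_t]; exact isUnit_one
  rw [appLE_awayToSection]
  have h := awayLift_mk 𝒜 (D.φ j) hU (D.t_mem j) n a ha
  have h2 : D.φ j (D.t j) ^ n = 1 := by rw [D.φ_t, one_pow]
  rwa [h2, mul_one] at h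

end ProjData

end

section base

variable {R A : Type u} [CommRing R] [CommRing A] [Algebra R A] {𝒜 : ℕ → Submodule R A} [GradedAlgebra 𝒜]
  {X : Scheme.{u}} {J : Type*} (D : ProjData 𝒜 X J)

lemma localHom_toSpec (p : X ⟶ Spec (CommRingCat.of R)) (j : J)
    (hp : ∀ r : R, D.φ j (algebraMap R A r) = CoordData.baseHom p (D.U j) r) :
    D.localHom j ≫ Proj.toSpecZero 𝒜 ≫ Spec.map (CommRingCat.ofHom (algebraMap R (𝒜 0))) =
      (D.U j).ι ≫ p := by
  rw [ProjData.localHom, ← Category.assoc, toProj_toSpecZero, Category.assoc, ← Spec.map_comp,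
    ← CommRingCat.ofHom_comp]
  rw [← eq_toSpecΓ_comp ((D.U j).ι ≫ p)]
  congr 3
  ext r
  simp only [RingHom.comp_apply]
  have h1 : algebraMap (𝒜 0) A (algebraMap R (𝒜 0) r) = algebraMap R A r := rfl
  rw [h1, ProjData.homTop, RingHom.comp_apply, hp, CoordData.baseHom]
  rw [Scheme.Hom.comp_appTop]
  simp only [CommRingCat.hom_comp, RingHom.comp_apply]
  have h2 : X.presheaf.map (homOfLE (le_top : D.U j ≤ ⊤)).op ≫ (D.U j).topIso.inv = (D.U j).ι.appTop := by
    rw [Iso.comp_inv_eq, Scheme.Opens.ι_appTop, Scheme.Opens.topIso_hom]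
    refine Eq.trans ?_ (X.presheaf.map_comp _ _)
    rfl
  exact congr(($h2).hom _)

theorem toProj_toSpec (p : X ⟶ Spec (CommRingCat.of R))
    (hp : ∀ (j : J) (r : R), D.φ j (algebraMap R A r) = CoordData.baseHom p (D.U j) r) :
    D.toProj ≫ Proj.toSpecZero 𝒜 ≫ Spec.map (CommRingCat.ofHom (algebraMap R (𝒜 0))) = p := by
  apply hom_ext_opens D.U D.iSup_U
  intro i
  rw [← Category.assoc, D.ι_toProj, localHom_toSpec D p i (hp i)]

/-- The global section of `O(1)` attached to an element of degree one. -/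
noncomputable def glob (a : 𝒜 1) : Γ(Twist.twist 𝒜 1, ⊤) := Twist.globalOf 𝒜 a

theorem isGen_glob (a : 𝒜 1) :
    IsGen (res (Twist.twist 𝒜 1) (le_top : Proj.basicOpen 𝒜 a.1 ≤ ⊤) (glob a)) :=
  CurvesC.TwistGen.isGen_glob 𝒜 a

theorem res_glob_eq_smul (f g : 𝒜 1) :
    res (Twist.twist 𝒜 1) (le_top : Proj.basicOpen 𝒜 f.1 ≤ ⊤) (glob g) =
      (show Γ(Proj 𝒜, Proj.basicOpen 𝒜 f.1) from Proj.awayToSection 𝒜 f.1
        (Away.mk 𝒜 f.2 1 g.1 (by rw [one_smul]; exact g.2))) •
      res (Twist.twist 𝒜 1) (le_top : Proj.basicOpen 𝒜 f.1 ≤ ⊤) (glob f) :=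
  CurvesC.TwistGen.glob_eq_smul 𝒜 f g

/-- The pull back of the global section `t j` generates `r^* O(1)` over `U j`. -/
theorem isGen_res_pullTop (j : J) :
    IsGen (res ((Scheme.Modules.pullback D.toProj).obj (Twist.twist 𝒜 1)) (le_top : D.U j ≤ ⊤)
      (pullTop D.toProj (glob (⟨D.t j, D.t_mem j⟩ : 𝒜 1)))) := by
  have h1 := (isGen_glob (⟨D.t j, D.t_mem j⟩ : 𝒜 1)).pullSec D.toProj
  have h2 := h1.res (D.le_preimage j)
  rw [← res_pullSec, res_res] at h2
  exact h2

/-- Over `U j`, the pull back of the global section `a` of `O(1)` is `φ j a` times that of `t j`. -/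
theorem res_pullTop (j : J) (a : 𝒜 1) :
    res ((Scheme.Modules.pullback D.toProj).obj (Twist.twist 𝒜 1)) (le_top : D.U j ≤ ⊤)
      (pullTop D.toProj (glob a)) = D.φ j a.1 •
    res ((Scheme.Modules.pullback D.toProj).obj (Twist.twist 𝒜 1)) (le_top : D.U j ≤ ⊤)
      (pullTop D.toProj (glob (⟨D.t j, D.t_mem j⟩ : 𝒜 1))) := by
  have h1 := congrArg (pullSec D.toProj) (res_glob_eq_smul (⟨D.t j, D.t_mem j⟩ : 𝒜 1) a)
  rw [pullSec_smul, ← res_pullSec, ← res_pullSec] at h1
  have h2 := congrArg (res ((Scheme.Modules.pullback D.toProj).obj (Twist.twist 𝒜 1)) (D.le_preimage j)) h1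
  rw [res_smul, res_res, res_res] at h2
  refine h2.trans ?_
  congr 1
  exact D.appLE_awayToSection_mk j 1 a.1 (by rw [one_smul]; exact a.2)

/-- The isomorphism `r^* O(1) ≅ L` for `L` generated over `U j` by `e j` with transition functions `φ i (t j)`. -/
theorem exists_iso (L : X.Modules) (e : ∀ j, Γ(L, D.U j)) (he : ∀ j, IsGen (e j))
    (hcomp : ∀ i j, res L (inf_le_right : D.U i ⊓ D.U j ≤ D.U j) (e j) =
      ores (inf_le_left : D.U i ⊓ D.U j ≤ D.U i) (D.φ i (D.t j)) •
        res L (inf_le_left : D.U i ⊓ D.U j ≤ D.U i) (e i)) :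
    ∃ τ : (Scheme.Modules.pullback D.toProj).obj (Twist.twist 𝒜 1) ≅ L,
      (∀ j, τ.hom.app (D.U j) (res _ le_top (pullTop D.toProj (glob (⟨D.t j, D.t_mem j⟩ : 𝒜 1)))) = e j) ∧
      ∀ (a : 𝒜 1) (s : Γ(L, ⊤)), (∀ j, res L le_top s = D.φ j a.1 • e j) →
        τ.hom.app ⊤ (pullTop D.toProj (glob a)) = s := by
  obtain ⟨τ, hτ⟩ := IsoCocycle.exists_iso (M := (Scheme.Modules.pullback D.toProj).obj (Twist.twist 𝒜 1))
    (N := L) (U := D.U) D.iSup_U
    (e := fun j => res _ le_top (pullTop D.toProj (glob (⟨D.t j, D.t_mem j⟩ : 𝒜 1)))) (e' := e)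
    (fun j => isGen_res_pullTop D j) he (by
      intro j i
      refine ⟨ores inf_le_right (D.φ i (D.t j)), ?_, ?_⟩
      · have h1 := res_pullTop D i ⟨D.t j, D.t_mem j⟩
        have h2 := congrArg (res ((Scheme.Modules.pullback D.toProj).obj (Twist.twist 𝒜 1))
          (inf_le_right : D.U j ⊓ D.U i ≤ D.U i)) h1
        rw [res_smul, res_res] at h2
        rw [res_res]
        exact h2
      · have h1 := congrArg (res L (le_inf inf_le_right inf_le_left : D.U j ⊓ D.U i ≤ D.U i ⊓ D.U j)) (hcomp i j)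
        rw [res_smul, res_res, res_res, ores_ores] at h1
        exact h1)
  refine ⟨τ, hτ, fun a s hs => ?_⟩
  refine res_ext L D.U (fun j => le_top) D.iSup_U.ge (fun j => ?_)
  rw [hs j, ← hτ j, ← app_res, res_pullTop D j a]
  exact Scheme.Modules.Hom.app_smul τ.hom _ _

end base

end Groth.Agent.Ega2.H297.ProjMap
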