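import Groth.Prelude.Def_ProjUP
import Groth.Agent.Ega2.H297.ProjMap
import Groth.Agent.Ega1.GlobGenPt
import Mathlib.LinearAlgebra.SymmetricAlgebra.Basic

/-!
# Morphisms to `Proj` of a symmetric algebra from generating sections of an invertible module

* `locus v i`: the generating locus of the global section `v i`; `iSup_locus`: they cover when the `v i` generate.
* `ratio v i k = v k / v i` on `locus v i`.
* `homData`: two algebra homomorphisms out of a graded algebra generated by `ι : M → 𝒮 1` which differ by a factor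
  `c` on `ι m` differ by `c ^ n` on `𝒮 n`.
* `symData`: the `ProjData` attached to an `A`-linear family of sections.
-/

set_option autoImplicit false
universe u
open CategoryTheory CategoryTheory.Limits AlgebraicGeometry TopologicalSpace Opposite
open Groth.Agent.Fdesc.LocGen
open Groth.Agent.VarietyB Groth.Agent.VarietyB.ProjHom Groth.Agent.VarietyB.ProjGlue

namespace Groth.Agent.Ega2.H297.SymMap

section ratio

variable {X : Scheme.{u}} {L : X.Modules} {I : Type*} (v : I → Γ(L, ⊤))

/-- The generating locus of the global section `v i`. -/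
noncomputable def locus (i : I) : X.Opens := CohB1.genLocus L (homOf (v i))

theorem isGen_res (i : I) : IsGen (res L (le_top : locus v i ≤ ⊤) (v i)) := by
  have h := isGen_sec_genLocus (homOf (v i))
  rwa [sec_homOf] at h

/-- The ratio `v k / v i` on the generating locus of `v i`. -/
noncomputable def ratio (i k : I) : Γ(X, locus v i) :=
  ((isGen_res v i).exists_eq (res L le_top (v k))).choose

theorem ratio_spec (i k : I) :
    res L (le_top : locus v i ≤ ⊤) (v k) = ratio v i k • res L (le_top : locus v i ≤ ⊤) (v i) :=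
  ((isGen_res v i).exists_eq (res L le_top (v k))).choose_spec

theorem ratio_unique (i k : I) {a : Γ(X, locus v i)}
    (h : res L (le_top : locus v i ≤ ⊤) (v k) = a • res L (le_top : locus v i ≤ ⊤) (v i)) : ratio v i k = a :=
  (isGen_res v i).ext (by rw [← ratio_spec, h])

theorem ratio_self (i : I) : ratio v i i = 1 :=
  ratio_unique v i i (by rw [one_smul])

theorem ratio_spec_le (i k : I) {W : X.Opens} (hW : W ≤ locus v i) :
    res L (le_top : W ≤ ⊤) (v k) = ores hW (ratio v i k) • res L (le_top : W ≤ ⊤) (v i) := by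
  have h := congrArg (res L hW) (ratio_spec v i k)
  rwa [res_smul, res_res, res_res] at h

theorem ratio_mul (i j k : I) :
    ores (inf_le_left : locus v i ⊓ locus v j ≤ locus v i) (ratio v i k) =
      ores (inf_le_left : locus v i ⊓ locus v j ≤ locus v i) (ratio v i j) *
        ores (inf_le_right : locus v i ⊓ locus v j ≤ locus v j) (ratio v j k) := by
  have hg := (isGen_res v i).res (inf_le_left : locus v i ⊓ locus v j ≤ locus v i)
  rw [res_res] at hg
  apply hg.ext
  rw [← ratio_spec_le, mul_comm, mul_smul, ← ratio_spec_le, ← ratio_spec_le]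

/-- The generating loci of generating sections cover. -/
theorem iSup_locus (hL : PicF.IsInvertible L) (hv : ProjUP.GeneratedBy L v) : ⨆ i, locus v i = ⊤ := by
  rw [eq_top_iff]
  intro x _
  rw [Opens.mem_iSup]
  by_contra hcon
  push Not at hcon
  obtain ⟨U, e, hx, he⟩ := (isInvertible_iff L).1 hL x
  have key : ∀ i, L.presheaf.germ ⊤ x trivial (v i) ∈
      (IsLocalRing.maximalIdeal (X.presheaf.stalk x) •
        (⊤ : Submodule (X.presheaf.stalk x) (L.presheaf.stalk x))) := by
    intro i
    obtain ⟨a, ha⟩ := he.exists_eq (sec (homOf (v i)) U)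
    have h1 := genLocus_inf_eq (homOf (v i)) he ha
    have h2 : x ∉ X.basicOpen a := by
      rw [← h1]
      exact fun h => hcon i h.1
    rw [Scheme.mem_basicOpen X _ x hx] at h2
    rw [sec_homOf] at ha
    have h3 : L.presheaf.germ ⊤ x trivial (v i) = L.presheaf.germ U x hx (res L le_top (v i)) :=
      (Ega1.GlobGenPt.germ_res L (le_top : U ≤ ⊤) x hx (v i)).symm
    rw [h3, ha, Fdesc.Skyscraper.germ_smul]
    exact Submodule.smul_mem_smul ((IsLocalRing.mem_maximalIdeal _).2 h2) Submodule.mem_top
  have h1 : (⊤ : Submodule (X.presheaf.stalk x) (L.presheaf.stalk x)) ≤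
      IsLocalRing.maximalIdeal (X.presheaf.stalk x) • ⊤ := by
    rw [← hv x, Submodule.span_le]
    rintro _ ⟨i, rfl⟩
    rw [hv x]
    exact key i
  exact Ega1.GlobGenPt.germ_notMem_smul_top he x hx (h1 Submodule.mem_top)

end ratio

section graded

variable {A : Type u} [CommRing A] {S : Type u} [CommRing S] [Algebra A S] (𝒮 : ℕ → Submodule A S)
  [GradedAlgebra 𝒮] {M : Type u} [AddCommGroup M] [Module A M] (ι : M →ₗ[A] S) (hι : ∀ m : M, ι m ∈ 𝒮 1)

/-- The degree `n` component. -/
noncomputable def comp (n : ℕ) (a : S) : S := (DirectSum.decompose 𝒮 a n : S)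

lemma comp_of_mem {n : ℕ} {a : S} (ha : a ∈ 𝒮 n) : comp 𝒮 n a = a := by
  rw [comp, DirectSum.decompose_of_mem_same 𝒮 ha]

lemma comp_of_mem_ne {n m : ℕ} {a : S} (ha : a ∈ 𝒮 n) (h : n ≠ m) : comp 𝒮 m a = 0 := by
  rw [comp, DirectSum.decompose_of_mem_ne 𝒮 ha h]

include hι in
/-- Two homomorphisms out of an algebra generated by `ι` which agree on scalars and differ by a factor `c` on
`ι m` differ by the factor `c ^ n` in degree `n`. -/
theorem eq_pow_mul (hsym : IsSymmetricAlgebra ι) {B : Type*} [CommRing B] (f g : S →+* B) (c : B)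
    (h0 : ∀ r : A, f (algebraMap A S r) = g (algebraMap A S r)) (h1 : ∀ m : M, f (ι m) = c * g (ι m))
    (n : ℕ) (a : S) (ha : a ∈ 𝒮 n) : f a = c ^ n * g a := by
  classical
  have key : ∀ a : S, ∀ n, f (comp 𝒮 n a) = c ^ n * g (comp 𝒮 n a) := by
    intro a
    refine hsym.induction (motive := fun a => ∀ n, f (comp 𝒮 n a) = c ^ n * g (comp 𝒮 n a)) ?_ ?_ ?_ ?_ a
    · intro r n
      have hr : algebraMap A S r ∈ 𝒮 0 := SetLike.algebraMap_mem_graded 𝒮 r
      by_cases hn : 0 = n
      · subst hn
        rw [comp_of_mem 𝒮 hr, pow_zero, one_mul, h0]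
      · rw [comp_of_mem_ne 𝒮 hr hn, map_zero, map_zero, mul_zero]
    · intro m n
      by_cases hn : 1 = n
      · subst hn
        rw [comp_of_mem 𝒮 (hι m), pow_one, h1]
      · rw [comp_of_mem_ne 𝒮 (hι m) hn, map_zero, map_zero, mul_zero]
    · intro a b ha hb n
      have h2 : comp 𝒮 n (a * b) = ∑ ij ∈ Finset.antidiagonal n, comp 𝒮 ij.1 a * comp 𝒮 ij.2 b := by
        simp only [comp]
        rw [DirectSum.decompose_mul, DirectSum.coe_mul_apply_eq_sum_antidiagonal]
      rw [h2, map_sum, map_sum, Finset.mul_sum]
      refine Finset.sum_congr rfl fun ij hij => ?_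
      rw [map_mul, map_mul, ha, hb, ← Finset.mem_antidiagonal.mp hij, pow_add]
      ring
    · intro a b ha hb n
      have h2 : comp 𝒮 n (a + b) = comp 𝒮 n a + comp 𝒮 n b := by
        simp only [comp]
        rw [DirectSum.decompose_add]
        rfl
      rw [h2, map_add, map_add, ha, hb]
      ring
  have := key a n
  rwa [comp_of_mem 𝒮 ha] at this

end graded

section sym

variable {A : Type u} [CommRing A] {S : Type u} [CommRing S] [Algebra A S] (𝒮 : ℕ → Submodule A S)
  [GradedAlgebra 𝒮] {M : Type u} [AddCommGroup M] [Module A M] (ι : M →ₗ[A] S) (hι : ∀ m : M, ι m ∈ 𝒮 1)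
  (hsym : IsSymmetricAlgebra ι)
  {X : Scheme.{u}} (q : X ⟶ Spec (CommRingCat.of A)) {L : X.Modules}
  (v : M →+ Γ(L, ⊤)) (hv : ∀ (a : A) (m : M), v (a • m) = ProjUP.toGlobal q a • v m)

/-- The ratios are additive. -/
theorem ratio_add (i k l : M) : ratio v i (k + l) = ratio v i k + ratio v i l :=
  ratio_unique v i (k + l) (by rw [map_add, map_add, add_smul, ← ratio_spec, ← ratio_spec])

include hv in
theorem ratio_smul (i : M) (a : A) (k : M) :
    ratio v i (a • k) = CoordData.baseHom q (locus v i) a * ratio v i k :=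
  ratio_unique v i (a • k) (by
    rw [hv, res_smul, mul_smul, ← ratio_spec]
    rfl)

/-- The algebra homomorphism from the symmetric algebra to the functions on the generating locus of `v i`. -/
noncomputable def symHom (i : M) : S →+* Γ(X, locus v i) :=
  letI : Algebra A Γ(X, locus v i) := (CoordData.baseHom q (locus v i)).toAlgebra
  (hsym.lift (A' := Γ(X, locus v i))
    { toFun := ratio v i
      map_add' := ratio_add v i
      map_smul' := fun a k => ratio_smul q v hv i a k }).toRingHom

theorem symHom_ι (i k : M) : symHom ι hsym q v hv i (ι k) = ratio v i k := by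
  letI : Algebra A Γ(X, locus v i) := (CoordData.baseHom q (locus v i)).toAlgebra
  exact hsym.lift_eq _ k

theorem symHom_algebraMap (i : M) (a : A) :
    symHom ι hsym q v hv i (algebraMap A S a) = CoordData.baseHom q (locus v i) a := by
  letI : Algebra A Γ(X, locus v i) := (CoordData.baseHom q (locus v i)).toAlgebra
  exact AlgHom.commutes _ a

/-- The data defining the morphism to `Proj 𝒮`. -/
noncomputable def symData (hcov : ⨆ i, locus v i = ⊤) : ProjMap.ProjData 𝒮 X M where
  U := locus v
  iSup_U := hcov
  t := ι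
  t_mem := hι
  φ := symHom ι hsym q v hv
  φ_t i := by rw [symHom_ι, ratio_self]
  compat i j n a ha := by
    refine eq_pow_mul 𝒮 ι hι hsym ((ores inf_le_left).comp (symHom ι hsym q v hv i))
      ((ores inf_le_right).comp (symHom ι hsym q v hv j)) _ ?_ ?_ n a ha
    · intro r
      simp only [RingHom.comp_apply, symHom_algebraMap]
      have h1 := CoordData.baseHom_map q (inf_le_left : locus v i ⊓ locus v j ≤ locus v i)
      have h2 := CoordData.baseHom_map q (inf_le_right : locus v i ⊓ locus v j ≤ locus v j)
      exact (congrArg (fun z => z r) h1).trans (congrArg (fun z => z r) h2).symm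
    · intro m
      simp only [RingHom.comp_apply, symHom_ι]
      exact ratio_mul v i j m

end sym

end Groth.Agent.Ega2.H297.SymMap
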